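import Cfsg.Agent.H786.IF.TMin
import Cfsg.Agent.H237.IF.Cnt
import Cfsg.Agent.H847.IF.Lift
import Cfsg.Agent.ClassicalGeometry.TwoFamilies

/-!
# S5719, orthogonal groups, `q` odd: USE (helper786)

`use_one`, `use_t`, `use_fund` : an involution in `A` gives a fundamental involution in `A`.
-/

set_option autoImplicit false
set_option linter.unusedSectionVars false
set_option linter.unusedVariables false
set_option linter.unusedSimpArgs false

namespace Cfsg.Agent.H786.IF

open QuadraticMap Cfsg.Agent.LieClassical Cfsg.Agent.LieClassical.OrthCore Cfsg.Agent.LieClassical.OrthTrans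
  Cfsg.Agent.AutOrth.SemiSim Cfsg.Agent.AutOrth.Gen Cfsg.Agent.H989.Gs.Gen Cfsg.Agent.H989.Fx
open Cfsg.Agent.H209.Fxy (IF)

variable {F V : Type*} [Field F] [AddCommGroup V] [Module F V] {Q : QuadraticForm F V}

/-- the space of `-1` -/
def Vm (t : ↥(E Q)) : Submodule F V where
  carrier := {v | ap t v = -v}
  add_mem' {a b} ha hb := by
    change ap t (a + b) = -(a + b)
    rw [ap_add, show ap t a = -a from ha, show ap t b = -b from hb, neg_add]
  zero_mem' := by
    change ap t 0 = -0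
    rw [neg_zero]
    exact map_zero _
  smul_mem' c a ha := by
    change ap t (c • a) = -(c • a)
    rw [ap_smul, show ap t a = -a from ha, smul_neg]

/-- the space of `1` -/
def Vp (t : ↥(E Q)) : Submodule F V where
  carrier := {v | ap t v = v}
  add_mem' {a b} ha hb := by
    change ap t (a + b) = a + b
    rw [ap_add, show ap t a = a from ha, show ap t b = b from hb]
  zero_mem' := map_zero _
  smul_mem' c a ha := by
    change ap t (c • a) = c • a
    rw [ap_smul, show ap t a = a from ha]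

theorem mem_Vm {t : ↥(E Q)} {v : V} : v ∈ Vm t ↔ ap t v = -v := Iff.rfl

theorem mem_Vp {t : ↥(E Q)} {v : V} : v ∈ Vp t ↔ ap t v = v := Iff.rfl

theorem polar_mp (h2 : (2 : F) ≠ 0) {t : ↥(E Q)} {x y : V} (hx : x ∈ Vm t) (hy : y ∈ Vp t) : polar Q x y = 0 := by
  have h1 := polar_ap t x y
  rw [mem_Vm.1 hx, mem_Vp.1 hy, polar_neg_left] at h1
  have h3 : (2 : F) * polar Q x y = 0 := by linear_combination -h1
  exact (mul_eq_zero.1 h3).resolve_left h2

theorem decomp (h2 : (2 : F) ≠ 0) {t : ↥(E Q)} (ht : t * t = 1) (v : V) :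
    ∃ a ∈ Vm t, ∃ b ∈ Vp t, v = a + b := by
  have htt : ap t (ap t v) = v := by rw [← ap_mul, ht, ap_one]
  refine ⟨(2 : F)⁻¹ • (v - ap t v), ?_, (2 : F)⁻¹ • (v + ap t v), ?_, ?_⟩
  · rw [mem_Vm, ap_smul, ap_sub, htt, ← smul_neg, neg_sub]
  · rw [mem_Vp, ap_smul, ap_add, htt, add_comm]
  · rw [← smul_add]
    have : v - ap t v + (v + ap t v) = (2 : F) • v := by rw [two_smul]; abel
    rw [this, smul_smul, inv_mul_cancel₀ h2, one_smul]

theorem nd_Vm (h2 : (2 : F) ≠ 0) (hQ : Nondeg Q) {t : ↥(E Q)} (ht : t * t = 1) : Nd Q (Vm t) := by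
  intro x hx H
  apply hQ
  intro v
  obtain ⟨a, ha, b, hb, rfl⟩ := decomp h2 ht v
  rw [polar_add_right, H a ha, polar_mp h2 hx hb, add_zero]

theorem nd_Vp (h2 : (2 : F) ≠ 0) (hQ : Nondeg Q) {t : ↥(E Q)} (ht : t * t = 1) : Nd Q (Vp t) := by
  intro x hx H
  apply hQ
  intro v
  obtain ⟨a, ha, b, hb, rfl⟩ := decomp h2 ht v
  rw [polar_add_right, H b hb, polar_comm, polar_mp h2 ha hx, add_zero]

theorem finrank_VmVp [FiniteDimensional F V] (h2 : (2 : F) ≠ 0) {t : ↥(E Q)} (ht : t * t = 1) :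
    Module.finrank F (Vm t) + Module.finrank F (Vp t) = Module.finrank F V := by
  apply Submodule.finrank_add_eq_of_isCompl
  constructor
  · rw [Submodule.disjoint_def]
    intro x hx hx'
    have h1 := mem_Vm.1 hx
    rw [mem_Vp.1 hx'] at h1
    have h3 : (2 : F) • x = 0 := by rw [two_smul]; nth_rewrite 1 [h1]; exact neg_add_cancel x
    exact (smul_eq_zero.1 h3).resolve_left h2
  · rw [codisjoint_iff, eq_top_iff]
    intro v _
    obtain ⟨a, ha, b, hb, rfl⟩ := decomp h2 ht v
    exact Submodule.add_mem_sup ha hb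

theorem S_neg_neg {u w : V} (hu : Q u = 0) (huw : polar Q u w = 0) : S Q (-u) (-w) = S Q u w := by
  have h3 : polar Q u (-w) = 0 := by rw [polar_neg_right, huw, neg_zero]
  have := S_smul (Q := Q) (-1 : F) hu h3
  rwa [neg_one_smul, neg_one_smul, neg_neg] at this

/-- **the lower bound for `t² = 1`** -/
theorem lower_one [Finite F] [FiniteDimensional F V] (h2 : (2 : F) ≠ 0) (hQ : Nondeg Q) {t : ↥(E Q)} (ht : t * t = 1)
    (X : Subgroup ↥(E Q)) (hX : NF Q X) :
    Nat.card F ^ (psi (Module.finrank F (Vm t)) + psi (Module.finrank F (Vp t))) ≤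
      X.relIndex (Subgroup.centralizer ({t} : Set ↥(E Q))) := by
  have hfE : Finite ↥(E Q) := Cfsg.Agent.H786.IF.finite_E
  set C := Subgroup.centralizer ({t} : Set ↥(E Q)) with hC
  have hcomm : ∀ g ∈ C, g * t = t * g := by
    intro g hg
    rw [hC, Subgroup.mem_centralizer_iff] at hg
    exact (hg t rfl).symm
  have hmem : ∀ g : ↥(E Q), t * g * t⁻¹ = g → g ∈ C := by
    intro g hg
    rw [hC, Subgroup.mem_centralizer_iff]
    rintro _ rfl
    exact mul_inv_eq_iff_eq_mul.1 hg
  rw [pow_add]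
  refine phi h2 _ C (Vm t) (nd_Vm h2 hQ ht) rfl ?_ ?_ _ ?_ X hX
  · intro g hg w hw
    rw [mem_Vm] at hw ⊢
    rw [← ap_mul, ← hcomm g hg, ap_mul, hw, ap_neg]
  · intro u hu w hw hu0 huw
    apply hmem
    rw [S_conj, mem_Vm.1 hu, mem_Vm.1 hw, S_neg_neg hu0 huw]
  · intro Y hY
    have h1 := phi h2 (Module.finrank F (Vp t)) (C ⊓ Fix Q (Vm t)) (Vp t) (nd_Vp h2 hQ ht) rfl ?_ ?_ 1 ?_ Y hY
    · rwa [mul_one] at h1
    · intro g hg w hw
      rw [mem_Vp] at hw ⊢
      rw [← ap_mul, ← hcomm g hg.1, ap_mul, hw]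
    · intro u hu w hw hu0 huw
      refine ⟨?_, ?_⟩
      · apply hmem
        rw [S_conj, mem_Vp.1 hu, mem_Vp.1 hw]
      · intro v hv
        exact S_fix hu0 huw (by rw [polar_comm]; exact polar_mp h2 hv hu) (by rw [polar_comm]; exact polar_mp h2 hv hw)
    · intro Y' hY'
      exact Nat.one_le_iff_ne_zero.2 Subgroup.FiniteIndex.index_ne_zero

theorem even_of_t [FiniteDimensional F V] {t : V →ₗ[F] V} (hts : ∀ v, t (t v) = -v) (hQt : ∀ v, Q (t v) = Q v)
    (h2 : (2 : F) ≠ 0) (hQ : Nondeg Q) : ∃ M : ℕ, Module.finrank F V = 2 * M := by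
  let B : LinearMap.BilinForm F V := (polarBilin Q).compl₂ t
  have hB : ∀ x y, B x y = polar Q x (t y) := fun x y => rfl
  obtain ⟨m, hm⟩ := Cfsg.Agent.ClassicalGeometry.TwoFamilies.exists_finrank_eq_ker_add B (fun x => polar_self_t hts hQt h2 x)
  have hker : LinearMap.ker B = ⊥ := by
    rw [LinearMap.ker_eq_bot']
    intro x hx
    apply hQ
    intro y
    have h1 : B x (-t y) = 0 := by rw [hx]; rfl
    rw [hB, map_neg, hts, neg_neg] at h1
    exact h1
  rw [hker, finrank_bot, zero_add] at hm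
  exact ⟨m, by rw [hm, two_mul]⟩

theorem sq_le_psit : ∀ M : ℕ, 2 ≤ M → M ^ 2 ≤ 5 * psit M := by
  intro M
  induction M using Nat.strong_induction_on with
  | _ M ih =>
  intro hM
  match M, ih, hM with
  | 2, _, _ => decide
  | 3, _, _ => decide
  | (m + 4), ih, _ =>
    have h1 := ih (m + 2) (by omega) (by omega)
    have h3 : psit (m + 4) = m + 3 + psit (m + 2) := rfl
    rw [h3]
    nlinarith

theorem psi_ge : ∀ n : ℕ, 5 ≤ n → (n - 3) ^ 2 + 7 ≤ 4 * psi n := by
  intro n
  induction n using Nat.strong_induction_on with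
  | _ n ih =>
  intro hn
  match n, ih, hn with
  | 5, _, _ => decide
  | 6, _, _ => decide
  | (m + 7), ih, _ =>
    have h1 := ih (m + 5) (by omega) (by omega)
    have h3 : psi (m + 7) = m + 3 + psi (m + 5) := rfl
    have e1 : m + 7 - 3 = m + 4 := by omega
    have e2 : m + 5 - 3 = m + 2 := by omega
    rw [h3, e1]
    rw [e2] at h1
    nlinarith

/-- the numbers, `N ≥ 11` -/
theorem num_of (a b : ℕ) (ha : 1 ≤ a) (hb : 1 ≤ b) (hN : 11 ≤ a + b) : a * b + 1 ≤ 5 * (psi a + psi b) := by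
  wlog hab : a ≤ b generalizing a b
  · have := this b a hb ha (by omega) (by omega)
    rw [mul_comm a b, add_comm (psi a)]
    exact this
  have hb6 : 6 ≤ b := by omega
  obtain ⟨c, rfl⟩ : ∃ c, b = c + 6 := ⟨b - 6, by omega⟩
  have h1 := psi_ge (c + 6) (by omega)
  have e1 : c + 6 - 3 = c + 3 := by omega
  rw [e1] at h1
  by_cases h5 : 5 ≤ a
  · obtain ⟨d, rfl⟩ : ∃ d, a = d + 5 := ⟨a - 5, by omega⟩
    have h3 := psi_ge (d + 5) (by omega)
    have e2 : d + 5 - 3 = d + 2 := by omega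
    rw [e2] at h3
    have h4 : 4 * ((d + 5) * (c + 6) + 1) ≤ 5 * ((d + 2) ^ 2 + 7 + ((c + 3) ^ 2 + 7)) := by
      rcases le_total c d with h | h
      · obtain ⟨x, rfl⟩ := Nat.exists_eq_add_of_le h
        nlinarith
      · obtain ⟨x, rfl⟩ := Nat.exists_eq_add_of_le h
        nlinarith
    nlinarith
  · have ha0 : psi a = 0 := by
      interval_cases a <;> rfl
    rw [ha0, zero_add]
    by_cases hc1 : c = 1
    · subst hc1
      have : psi (1 + 6) = 6 := rfl
      rw [this]
      omega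
    · have hc2 : 2 ≤ c := by
        by_contra hcon
        have : c = 0 := by omega
        subst this
        omega
      have h4 : 4 * (a * (c + 6) + 1) ≤ 5 * ((c + 3) ^ 2 + 7) := by
        have h6 : a * (c + 6) ≤ 4 * (c + 6) := Nat.mul_le_mul_right _ (by omega)
        nlinarith
      nlinarith

variable {T : Type*} [Group T] [Finite T] [IsSimpleGroup T] {A : Subgroup T} {Γ : Subgroup (MulAut T)}

/-- **`t² = 1`** -/
theorem use_one [Finite F] [FiniteDimensional F V] (h2 : (2 : F) ≠ 0) (hQ : Nondeg Q) (h : IF A Γ)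
    (hna : ∃ a b : T, a * b ≠ b * a) (pi : ↥(E Q) →* T) (hpi : Function.Surjective pi) {t : ↥(E Q)} (ht : pi t ∈ A)
    (ht1 : pi t ≠ 1) (htt : t * t = 1)
    (hnum : Module.finrank F (Vm t) * (Module.finrank F V - Module.finrank F (Vm t)) + 1 ≤
      5 * (psi (Module.finrank F (Vm t)) + psi (Module.finrank F (Vp t)))) : ∃ z, Fund Q z ∧ pi z ∈ A := by
  have hfE : Finite ↥(E Q) := Cfsg.Agent.H786.IF.finite_E
  by_contra hcon
  push Not at hcon
  have hX : NF Q (A.comap pi) := fun z hz hF => hcon z hF hz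
  have h1 := lower_one h2 hQ htt (A.comap pi) hX
  have h3 := Cfsg.Agent.H847.IF.lift_E2 h hna pi hpi ht ht1 (by rw [htt, map_one])
    (B := Subgroup.centralizer ({t} : Set ↥(E Q))) (by
      intro b hb
      rw [Subgroup.mem_centralizer_iff] at hb
      rw [hb t rfl])
  have h4 := Cfsg.Agent.H237.IF.class_sq_one h2 hQ t htt (Vm t) (fun v => mem_Vm)
  have hq : 1 < Nat.card F := Finite.one_lt_card
  have h5 : Nat.card F ^ (5 * (psi (Module.finrank F (Vm t)) + psi (Module.finrank F (Vp t)))) ≤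
      (A.comap pi).relIndex (Subgroup.centralizer ({t} : Set ↥(E Q))) ^ 5 := by
    rw [mul_comm, pow_mul]
    exact Nat.pow_le_pow_left h1 5
  have h6 := Nat.pow_le_pow_right (Nat.lt_of_lt_of_le Nat.zero_lt_one hq.le) hnum
  omega

/-- **`t² = -1`** -/
theorem use_t [Finite F] [FiniteDimensional F V] (h2 : (2 : F) ≠ 0) (hQ : Nondeg Q) (h4 : 4 ≤ Module.finrank F V)
    (h : IF A Γ) (hna : ∃ a b : T, a * b ≠ b * a) (pi : ↥(E Q) →* T) (hpi : Function.Surjective pi) {t : ↥(E Q)}
    (ht : pi t ∈ A) (ht1 : pi t ≠ 1) (htp : pi (t * t) = 1) (htt : ∀ v, ap t (ap t v) = -v) :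
    ∃ z, Fund Q z ∧ pi z ∈ A := by
  have hfE : Finite ↥(E Q) := Cfsg.Agent.H786.IF.finite_E
  by_contra hcon
  push Not at hcon
  have hX : NF Q (A.comap pi) := fun z hz hF => hcon z hF hz
  let τ : V →ₗ[F] V := ((t : V ≃ₗ[F] V) : V →ₗ[F] V)
  have hτ : ∀ v, τ v = ap t v := fun v => rfl
  have hts : ∀ v, τ (τ v) = -v := htt
  have hQt : ∀ v, Q (τ v) = Q v := fun v => Q_ap t v
  obtain ⟨M, hM⟩ := even_of_t hts hQt h2 hQ
  have hTop : Nd Q (⊤ : Submodule F V) := fun x _ hx => hQ x fun y => hx y trivial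
  have h1 := phi_t hts hQt h2 hQ M ⊤ hTop (by rw [finrank_top, hM]) (fun w _ => trivial) (A.comap pi) hX
  have h3 := Cfsg.Agent.H847.IF.lift_E2 h hna pi hpi ht ht1 htp (B := KT Q τ ⊤) (by
      intro b hb
      have : b * t = t * b := by
        apply ext_ap
        intro v
        rw [ap_mul, ap_mul]
        exact hb.1 v
      rw [this])
  have h5 := Cfsg.Agent.H237.IF.class_sq_neg h2 hQ M hM t htt
  have hq : 1 < Nat.card F := Finite.one_lt_card
  have h6 : Nat.card F ^ (5 * psit M) ≤ (A.comap pi).relIndex (KT Q τ ⊤) ^ 5 := by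
    rw [mul_comm, pow_mul]
    exact Nat.pow_le_pow_left h1 5
  have h7 := Nat.pow_le_pow_right (Nat.lt_of_lt_of_le Nat.zero_lt_one hq.le) (sq_le_psit M (by omega))
  omega

/-- an involution of the quotient lifts to `t² = 1`, `t ≠ ± 1`, or to `t² = -1` -/
theorem lift_cases (hQ : Nondeg Q) (hs : ∃ v : V, Q v ≠ 0) (hna : ∃ a b : T, a * b ≠ b * a) (pi : ↥(E Q) →* T)
    (hpi : Function.Surjective pi) (hk : KerScalar pi) {t : ↥(E Q)} (ht : orderOf (pi t) = 2) :
    (t * t = 1 ∧ Vm t ≠ ⊤ ∧ Vp t ≠ ⊤) ∨ ∀ v, ap t (ap t v) = -v := by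
  have ht1 : pi t ≠ 1 := by
    intro h1
    rw [h1, orderOf_one] at ht
    omega
  have ht2 : pi (t * t) = 1 := by
    rw [map_mul, ← pow_two, ← ht, pow_orderOf_eq_one]
  obtain ⟨c, hc⟩ := hk _ ht2
  have hc' : ∀ v, ap (t * t) v = c • v := hc
  obtain ⟨v, hv⟩ := hs
  have h1 := Q_ap (t * t) v
  rw [hc', QuadraticMap.map_smul, smul_eq_mul] at h1
  have h3 : c * c = 1 := mul_right_cancel₀ hv (by rw [h1, one_mul])
  rcases mul_self_eq_one_iff.1 h3 with h5 | h5
  · left
    have htt : t * t = 1 := by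
      apply ext_ap
      intro w
      rw [hc', h5, one_smul, ap_one]
    refine ⟨htt, ?_, ?_⟩
    · intro htop
      apply ht1
      apply Cfsg.Agent.H999.IFB.center_of hna
      intro x
      obtain ⟨g, rfl⟩ := hpi x
      rw [← map_mul, ← map_mul]
      congr 1
      apply ext_ap
      intro w
      have k1 : ∀ w, ap t w = -w := fun w => by
        have : w ∈ Vm t := by rw [htop]; trivial
        exact this
      rw [ap_mul, ap_mul, k1, k1, ap_neg]
    · intro htop
      apply ht1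
      have : t = 1 := by
        apply ext_ap
        intro w
        have : w ∈ Vp t := by rw [htop]; trivial
        exact this
      rw [this, map_one]
  · right
    intro w
    rw [← ap_mul, hc', h5, neg_one_smul]

/-- **USE**: an involution in `A` gives a fundamental involution in `A` (`dim V ≥ 11`) -/
theorem use_fund [Finite F] [FiniteDimensional F V] (h2 : (2 : F) ≠ 0) (hQ : Nondeg Q) (hN : 11 ≤ Module.finrank F V)
    (h : IF A Γ) (hna : ∃ a b : T, a * b ≠ b * a) (pi : ↥(E Q) →* T) (hpi : Function.Surjective pi)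
    (hk : KerScalar pi) {t : ↥(E Q)} (ht : pi t ∈ A) (ho : orderOf (pi t) = 2) : ∃ z, Fund Q z ∧ pi z ∈ A := by
  have ht1 : pi t ≠ 1 := by
    intro h1
    rw [h1, orderOf_one] at ho
    omega
  have ht2 : pi (t * t) = 1 := by
    rw [map_mul, ← pow_two, ← ho, pow_orderOf_eq_one]
  have hs : ∃ v : V, Q v ≠ 0 := by
    by_contra hcon
    push Not at hcon
    have hnt : Nontrivial V := Module.nontrivial_of_finrank_pos (R := F) (by omega)
    obtain ⟨x, hx⟩ := exists_ne (0 : V)
    apply hx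
    apply hQ
    intro y
    simp only [QuadraticMap.polar, hcon, sub_zero]
  rcases lift_cases hQ hs hna pi hpi hk ho with ⟨htt, hm, hp⟩ | htt
  · apply use_one h2 hQ h hna pi hpi ht ht1 htt
    have h3 := finrank_VmVp h2 htt
    have h5 : Module.finrank F (Vm t) < Module.finrank F V := Submodule.finrank_lt hm
    have h6 : Module.finrank F (Vp t) < Module.finrank F V := Submodule.finrank_lt hp
    have e1 : Module.finrank F V - Module.finrank F (Vm t) = Module.finrank F (Vp t) := by omega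
    rw [e1]
    exact num_of _ _ (by omega) (by omega) (by omega)
  · exact use_t h2 hQ (by omega) h hna pi hpi ht ht1 ht2 htt

end Cfsg.Agent.H786.IF
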