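import Cfsg.Agent.H786.IF.Heis
import Cfsg.Agent.H989.Fx.OmF

/-!
# S5719, orthogonal groups, `q` odd: PHI in ambient form (helper786)

`phi` : `W` a nondegenerate subspace, `K ≤ E Q` leaves `W` invariant and contains all Siegel elements of `W`; if
`c ≤ |K ∩ Fix W : Y ∩ ..|` for all `Y` without fundamental involutions, then `q ^ psi (dim W) * c ≤ |K : X ∩ K|`
for all `X` without fundamental involutions.
-/

set_option autoImplicit false
set_option linter.unusedSectionVars false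
set_option linter.unusedVariables false

namespace Cfsg.Agent.H786.IF

open QuadraticMap Cfsg.Agent.LieClassical Cfsg.Agent.LieClassical.OrthCore Cfsg.Agent.LieClassical.OrthTrans
  Cfsg.Agent.AutOrth.SemiSim Cfsg.Agent.AutOrth.Gen Cfsg.Agent.H989.Gs.Gen Cfsg.Agent.H989.Fx
open Cfsg.Agent.UGT.U2.FOne.Orth (Four)
open Cfsg.Agent.LieClassical.SLTwoUnipotent (u l)

variable {F V : Type*} [Field F] [AddCommGroup V] [Module F V] {Q : QuadraticForm F V}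

theorem odd_q [Finite F] (h2 : (2 : F) ≠ 0) : Odd (Nat.card F) := by
  have := Fintype.ofFinite F
  rw [Nat.card_eq_fintype_card]
  refine Nat.odd_iff.2 (FiniteField.odd_card_of_char_ne_two ?_)
  intro h3
  apply h2
  have h4 : ((ringChar F : ℕ) : F) = 0 := ringChar.Nat.cast_ringChar
  rw [h3] at h4
  exact_mod_cast h4

theorem relIndex_mono {G : Type*} [Group G] [Finite G] (X : Subgroup G) {K L : Subgroup G} (h : L ≤ K) :
    X.relIndex L ≤ X.relIndex K :=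
  Subgroup.relIndex_le_of_le_right h (Subgroup.FiniteIndex.index_ne_zero)

/-- the vector `w₀` of `W` -/
theorem exists_w0 [Finite F] [FiniteDimensional F V] (h2 : (2 : F) ≠ 0) {X : Subgroup ↥(E Q)} (hX : NF Q X)
    (K : Subgroup ↥(E Q)) {W : Submodule F V} (hW : W ≠ ⊥) (hK1 : ∀ g ∈ K, ∀ w ∈ W, ap g w ∈ W) :
    ∃ w₀ ∈ W, w₀ ≠ 0 ∧ ∀ x y : V, Q x = 0 → Q y = 0 → polar Q x y = 0 → S Q x y ∈ X → S Q x y ∈ K → S Q x y ≠ 1 →
      polar Q x w₀ = 0 := by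
  obtain ⟨p, hp⟩ := CharP.exists F
  cases nonempty_fintype F
  have hpp : Fact p.Prime := ⟨CharP.char_is_prime F p⟩
  have hfinV : Finite V := Module.finite_of_finite F
  obtain ⟨R, hR1, hR2, -, hR3⟩ := exists_R (p := p) h2 (X := X ⊓ K) (fun z hz => hX z hz.1)
  obtain ⟨w₀, hw, hw0, hfix⟩ := exists_fixed_vec hR2 hW (fun g hg w hw => hK1 g (hR1 hg).2 w hw)
  refine ⟨w₀, hw, hw0, fun x y hx hy hxy h1 h3 h4 => ?_⟩
  exact (polar_eq_zero_of_fix hx hy hxy h4 (hfix _ (hR3 x y hx hy hxy ⟨h1, h3⟩))).1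

theorem finrank_inf_Dp [FiniteDimensional F V] {W : Submodule F V} {e f : V} (he : e ∈ W) (hf : f ∈ W)
    (h : Hyp Q e f) : Module.finrank F (W ⊓ Dp Q e f : Submodule F V) + 2 = Module.finrank F W := by
  have h' : Hyp (QR Q W) (⟨e, he⟩ : W) ⟨f, hf⟩ := ⟨h.left, h.right, h.pair⟩
  rw [← finrank_Dp h']
  congr 1
  have e1 : (Dp (QR Q W) (⟨e, he⟩ : W) ⟨f, hf⟩).map W.subtype = W ⊓ Dp Q e f := by
    ext v
    constructor
    · rintro ⟨⟨x, hx⟩, hx', rfl⟩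
      exact ⟨hx, hx'.1, hx'.2⟩
    · rintro ⟨hv, hv1, hv2⟩
      exact ⟨⟨v, hv⟩, ⟨hv1, hv2⟩, rfl⟩
  rw [← e1]
  exact Submodule.finrank_map_subtype_eq _ _

theorem nd_inf_Dp {W : Submodule F V} (hW : Nd Q W) {e f : V} (he : e ∈ W) (hf : f ∈ W)
    (h : Hyp Q e f) : Nd Q (W ⊓ Dp Q e f) := by
  rintro x ⟨hx, hx1, hx2⟩ H
  apply hW x hx
  intro y hy
  have h1 := H (proj Q e f y) ⟨?_, polar_proj_left h y, polar_proj_right h y⟩
  · rwa [polar_proj_of_perp hx1 hx2] at h1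
  · exact W.sub_mem (W.sub_mem hy (W.smul_mem _ he)) (W.smul_mem _ hf)

/-- the Siegel elements `S e w`, `w ∈ W` -/
noncomputable def QW (W : Submodule F V) {e f : V} (h : Hyp Q e f) : Subgroup ↥(E Q) where
  carrier := {g | ∃ w ∈ W ⊓ Dp Q e f, g = S Q e w}
  one_mem' := ⟨0, Submodule.zero_mem _, (S_zero e).symm⟩
  mul_mem' := by
    rintro _ _ ⟨w, hw, rfl⟩ ⟨w', hw', rfl⟩
    exact ⟨w + w', Submodule.add_mem _ hw hw', (S_add h.left hw.2.1 hw'.2.1).symm⟩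
  inv_mem' := by
    rintro _ ⟨w, hw, rfl⟩
    exact ⟨-w, Submodule.neg_mem _ hw, S_inv h.left hw.2.1⟩

theorem card_QW [Finite F] [FiniteDimensional F V] {W : Submodule F V} {e f : V} (he : e ∈ W) (hf : f ∈ W)
    (h : Hyp Q e f) : Nat.card (QW W h) = Nat.card F ^ (Module.finrank F W - 2) := by
  have e1 : Nat.card (W ⊓ Dp Q e f : Submodule F V) = Nat.card (QW W h) := by
    refine Nat.card_congr (Equiv.ofBijective (fun w => ⟨S Q e w.1, w.1, w.2, rfl⟩) ⟨?_, ?_⟩)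
    · rintro ⟨w, hw⟩ ⟨w', hw'⟩ H
      exact Subtype.ext (S_inj h hw.2 hw'.2 (congrArg Subtype.val H))
    · rintro ⟨_, w, hw, rfl⟩
      exact ⟨⟨w, hw⟩, rfl⟩
  have h1 := finrank_inf_Dp he hf h
  rw [← e1, Module.natCard_eq_pow_finrank (K := F)]
  congr 1
  omega

theorem card_inf_QW [Finite F] [FiniteDimensional F V] (h2 : (2 : F) ≠ 0) {W : Submodule F V} {e f : V}
    (h : Hyp Q e f) (X : Subgroup ↥(E Q)) (hX : ∀ w ∈ W ⊓ Dp Q e f, Q w = 0 → S Q e w ∈ X → w = 0) :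
    Nat.card (X ⊓ QW W h : Subgroup ↥(E Q)) ≤ Nat.card F ^ 2 := by
  have hfinV : Finite V := Module.finite_of_finite F
  let D : AddSubgroup V :=
    { carrier := {w | w ∈ W ⊓ Dp Q e f ∧ S Q e w ∈ X}
      zero_mem' := ⟨Submodule.zero_mem _, by rw [S_zero]; exact X.one_mem⟩
      add_mem' := by
        rintro w w' ⟨hw, h1⟩ ⟨hw', h1'⟩
        exact ⟨Submodule.add_mem _ hw hw', by rw [S_add h.left hw.2.1 hw'.2.1]; exact X.mul_mem h1 h1'⟩
      neg_mem' := by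
        rintro w ⟨hw, h1⟩
        exact ⟨Submodule.neg_mem _ hw, by rw [← S_inv h.left hw.2.1]; exact X.inv_mem h1⟩ }
  have e1 : Nat.card D = Nat.card (X ⊓ QW W h : Subgroup ↥(E Q)) := by
    refine Nat.card_congr (Equiv.ofBijective (fun w => ⟨S Q e w.1, w.2.2, w.1, w.2.1, rfl⟩) ⟨?_, ?_⟩)
    · rintro ⟨w, hw⟩ ⟨w', hw'⟩ H
      exact Subtype.ext (S_inj h hw.1.2 hw'.1.2 (congrArg Subtype.val H))
    · rintro ⟨_, hg, w, hw, rfl⟩
      exact ⟨⟨w, hw, hg⟩, rfl⟩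
  rw [← e1]
  exact card_le_sq h2 D fun a ha ha0 => hX a ha.1 ha0 ha.2

theorem S_ne_one {e f : V} (h : Hyp Q e f) {w : V} (hw : w ∈ Dp Q e f) (hw0 : w ≠ 0) : S Q e w ≠ 1 := by
  intro h1
  apply hw0
  apply S_inj h hw (Submodule.zero_mem _)
  rw [h1, S_zero]

theorem pow_cancel {q a b c m : ℕ} (hq : 0 < q) (h : q ^ (a + m) * c ≤ b * q ^ m) : q ^ a * c ≤ b := by
  have h1 : q ^ m * (q ^ a * c) ≤ q ^ m * b := by
    calc q ^ m * (q ^ a * c) = q ^ (a + m) * c := by rw [pow_add]; ring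
      _ ≤ b * q ^ m := h
      _ = q ^ m * b := mul_comm _ _
  exact Nat.le_of_mul_le_mul_left h1 (pow_pos hq m)

/-- the conditions on the class `P` of bad involutions, relative to `K` and `W` -/
structure Bad (Q : QuadraticForm F V) (P : ↥(E Q) → Prop) (K : Subgroup ↥(E Q)) (W : Submodule F V) : Prop where
  sq : ∀ z ∈ K, P z → z * z = 1
  conj : ∀ g ∈ K, ∀ z ∈ K, P z → P (g * z * g⁻¹)
  fund : ∀ z ∈ K, z ∈ FP Q W → Fund Q z → P z

theorem Bad.mono {P : ↥(E Q) → Prop} {K K' : Subgroup ↥(E Q)} {W W' : Submodule F V} (h : Bad Q P K W) (hK : K' ≤ K)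
    (hW : W' ≤ W) : Bad Q P K' W' :=
  ⟨fun z hz => h.sq z (hK hz), fun g hg z hz => h.conj g (hK hg) z (hK hz),
    fun z hz hz' => h.fund z (hK hz) (FP_mono hW hz')⟩

theorem bad_fund (K : Subgroup ↥(E Q)) (W : Submodule F V) : Bad Q (Fund Q) K W :=
  ⟨fun z _ hz => Fund.sq hz, fun g _ z _ hz => Fund.conj hz g, fun z _ _ hz => hz⟩

/-- **one step** -/
theorem stepP [Finite F] [FiniteDimensional F V] (h2 : (2 : F) ≠ 0) (K : Subgroup ↥(E Q)) (W : Submodule F V)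
    (P : ↥(E Q) → Prop) (hP : Bad Q P K W)
    (hW : Nd Q W) (hd : 4 ≤ Module.finrank F W) (hK1 : ∀ g ∈ K, ∀ w ∈ W, ap g w ∈ W)
    (hK2 : ∀ u ∈ W, ∀ w ∈ W, Q u = 0 → polar Q u w = 0 → S Q u w ∈ K) (X : Subgroup ↥(E Q)) (hX : ∀ z ∈ X, ¬ P z) :
    ∃ e ∈ W, ∃ f ∈ W, Hyp Q e f ∧ ∀ c : ℕ,
      (∀ Y : Subgroup ↥(E Q), (∀ z ∈ Y, ¬ P z) → c ≤ Y.relIndex (K ⊓ Fix Q (Submodule.span F {e, f}))) →
      Nat.card F ^ (Module.finrank F W - 4) * c ≤ X.relIndex K := by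
  have hfE : Finite ↥(E Q) := Cfsg.Agent.H786.IF.finite_E
  have hWb : W ≠ ⊥ := by
    rintro rfl
    rw [finrank_bot] at hd
    omega
  obtain ⟨w₀, hw, hw0, hR⟩ := exists_w0 h2 (X := X ⊓ (K ⊓ FP Q W)) (fun z hz hF => hX z hz.1 (hP.fund z hz.2.1 hz.2.2 hF))
    (K ⊓ FP Q W) hWb (fun g hg => hK1 g hg.1)
  obtain ⟨e, he, f, hf, h, hew⟩ := exists_pair hW (by omega) hw hw0
  refine ⟨e, he, f, hf, h, fun c hc => ?_⟩
  have hfix : ∀ g ∈ Fix Q (Submodule.span F {e, f}), ap g e = e ∧ ap g f = f := fun g hg =>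
    ⟨hg e (Submodule.subset_span (by simp)), hg f (Submodule.subset_span (by simp))⟩
  have habs := abs_relP K (K ⊓ Fix Q (Submodule.span F {e, f})) (QW W h) X (by
      rintro _ ⟨w, hw, rfl⟩
      exact hK2 e he w hw.1 h.left hw.2.1) inf_le_left (by
      rw [card_QW he hf h]
      exact (odd_q h2).pow) (by
      rintro g ⟨hgK, hgF⟩ _ ⟨w, hw, rfl⟩
      obtain ⟨h1, h3⟩ := hfix g hgF
      rw [S_conj, h1]
      refine ⟨ap g w, ⟨hK1 g hgK w hw.1, ?_, ?_⟩, rfl⟩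
      · rw [← h1, polar_ap]
        exact hw.2.1
      · rw [← h3, polar_ap]
        exact hw.2.2) P hP.sq hP.conj hX c hc
  have hle := card_inf_QW (W := W) h2 h X (by
    intro w hw1 hw2 hw3
    by_contra hne
    have hm : S Q e w ∈ K ⊓ FP Q W :=
      ⟨hK2 e he w hw1.1 h.left hw1.2.1, S_mem_FP he hw1.1 h.left hw1.2.1⟩
    exact hew (hR e w h.left hw2 hw1.2.1 ⟨hw3, hm⟩ hm (S_ne_one h hw1.2 hne)))
  rw [card_QW he hf h] at habs
  refine pow_cancel (m := 2) Nat.card_pos ?_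
  have e1 : Module.finrank F W - 4 + 2 = Module.finrank F W - 2 := by omega
  rw [e1]
  calc _ ≤ _ := habs
    _ ≤ Nat.card F ^ 2 * X.relIndex K := Nat.mul_le_mul_right _ hle
    _ = _ := mul_comm _ _

/-- **one step**, `P` = fundamental involutions -/
theorem step [Finite F] [FiniteDimensional F V] (h2 : (2 : F) ≠ 0) (K : Subgroup ↥(E Q)) (W : Submodule F V)
    (hW : Nd Q W) (hd : 4 ≤ Module.finrank F W) (hK1 : ∀ g ∈ K, ∀ w ∈ W, ap g w ∈ W)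
    (hK2 : ∀ u ∈ W, ∀ w ∈ W, Q u = 0 → polar Q u w = 0 → S Q u w ∈ K) (X : Subgroup ↥(E Q)) (hX : NF Q X) :
    ∃ e ∈ W, ∃ f ∈ W, Hyp Q e f ∧ ∀ c : ℕ,
      (∀ Y : Subgroup ↥(E Q), NF Q Y → c ≤ Y.relIndex (K ⊓ Fix Q (Submodule.span F {e, f}))) →
      Nat.card F ^ (Module.finrank F W - 4) * c ≤ X.relIndex K :=
  stepP h2 K W (Fund Q) (bad_fund K W) hW hd hK1 hK2 X hX

end Cfsg.Agent.H786.IF
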