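import Cfsg.Agent.H786.IF.Base

/-!
# S5719, orthogonal groups, `q` odd: the group of a totally singular line (helper786)

`HG h P` : the elements `S e₁ v₁ * S e₂ v₂ * S e₁ (c • e₂)`, `(v₁, v₂) ∈ P`; `card_HG`, `card_inf_HG`.
-/

set_option autoImplicit false
set_option linter.unusedSectionVars false
set_option linter.unusedVariables false

namespace Cfsg.Agent.H786.IF

open QuadraticMap Cfsg.Agent.LieClassical Cfsg.Agent.LieClassical.OrthCore Cfsg.Agent.LieClassical.OrthTrans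
  Cfsg.Agent.AutOrth.SemiSim Cfsg.Agent.AutOrth.Gen Cfsg.Agent.H989.Gs.Gen Cfsg.Agent.H989.Fx
open Cfsg.Agent.UGT.U2.FOne.Orth (Four)

variable {F V : Type*} [Field F] [AddCommGroup V] [Module F V] {Q : QuadraticForm F V}

/-- orthogonal to four vectors -/
structure Pp (Q : QuadraticForm F V) (e₁ f₁ e₂ f₂ v : V) : Prop where
  a : polar Q e₁ v = 0
  b : polar Q f₁ v = 0
  c : polar Q e₂ v = 0
  d : polar Q f₂ v = 0

theorem Pp.add {e₁ f₁ e₂ f₂ v w : V} (hv : Pp Q e₁ f₁ e₂ f₂ v) (hw : Pp Q e₁ f₁ e₂ f₂ w) : Pp Q e₁ f₁ e₂ f₂ (v + w) :=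
  ⟨by rw [polar_add_right, hv.a, hw.a, add_zero], by rw [polar_add_right, hv.b, hw.b, add_zero],
    by rw [polar_add_right, hv.c, hw.c, add_zero], by rw [polar_add_right, hv.d, hw.d, add_zero]⟩

theorem Pp.smul {e₁ f₁ e₂ f₂ v : V} (hv : Pp Q e₁ f₁ e₂ f₂ v) (x : F) : Pp Q e₁ f₁ e₂ f₂ (x • v) :=
  ⟨by rw [polar_smul_right, hv.a, smul_zero], by rw [polar_smul_right, hv.b, smul_zero],
    by rw [polar_smul_right, hv.c, smul_zero], by rw [polar_smul_right, hv.d, smul_zero]⟩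

theorem Pp.zero {e₁ f₁ e₂ f₂ : V} : Pp Q e₁ f₁ e₂ f₂ 0 :=
  ⟨polar_zero_right _ _, polar_zero_right _ _, polar_zero_right _ _, polar_zero_right _ _⟩

theorem Pp.neg {e₁ f₁ e₂ f₂ v : V} (hv : Pp Q e₁ f₁ e₂ f₂ v) : Pp Q e₁ f₁ e₂ f₂ (-v) := by
  have := hv.smul (-1)
  rwa [neg_one_smul] at this

/-- the element `S e₁ v₁ * S e₂ v₂ * S e₁ (c • e₂)` -/
noncomputable def th (Q : QuadraticForm F V) (e₁ e₂ v₁ v₂ : V) (c : F) : ↥(E Q) :=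
  S Q e₁ v₁ * S Q e₂ v₂ * S Q e₁ (c • e₂)

section four

variable {e₁ f₁ e₂ f₂ : V} (h : Four Q e₁ f₁ e₂ f₂)

include h

theorem z_swap (c : F) : S Q e₁ (c • e₂) = S Q e₂ ((-c) • e₁) := by
  have h1 : Q (c • e₂) = 0 := by rw [QuadraticMap.map_smul, h.h2.left, smul_zero]
  have h2 : polar Q e₁ (c • e₂) = 0 := by rw [polar_smul_right, h.ee, smul_zero]
  have h3 : polar Q e₂ (-e₁) = 0 := by rw [polar_neg_right, polar_zero_of_comm h.ee, neg_zero]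
  rw [S_swap h.h1.left h1 h2, S_smul c h.h2.left h3, smul_neg, neg_smul]

theorem z_comm1 {v : V} (hv : Pp Q e₁ f₁ e₂ f₂ v) (c : F) : S Q e₁ (c • e₂) * S Q e₁ v = S Q e₁ v * S Q e₁ (c • e₂) := by
  have h2 : polar Q e₁ (c • e₂) = 0 := by rw [polar_smul_right, h.ee, smul_zero]
  rw [← S_add h.h1.left h2 hv.a, ← S_add h.h1.left hv.a h2, add_comm]

theorem z_comm2 {v : V} (hv : Pp Q e₁ f₁ e₂ f₂ v) (c : F) : S Q e₁ (c • e₂) * S Q e₂ v = S Q e₂ v * S Q e₁ (c • e₂) := by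
  have h2 : polar Q e₂ ((-c) • e₁) = 0 := by rw [polar_smul_right, polar_zero_of_comm h.ee, smul_zero]
  rw [z_swap h, ← S_add h.h2.left h2 hv.c, ← S_add h.h2.left hv.c h2, add_comm]

theorem S2_e1 {v : V} (hv : Pp Q e₁ f₁ e₂ f₂ v) : ap (S Q e₂ v) e₁ = e₁ := by
  refine S_fix h.h2.left hv.c (polar_zero_of_comm h.ee) ?_
  rw [polar_comm]
  exact hv.a

theorem comm21 {v w : V} (hv : Pp Q e₁ f₁ e₂ f₂ v) (hw : Pp Q e₁ f₁ e₂ f₂ w) :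
    S Q e₂ v * S Q e₁ w = S Q e₁ w * S Q e₁ ((-polar Q v w) • e₂) * S Q e₂ v := by
  have h1 := S_conj (S Q e₂ v) e₁ w
  have h2 : ap (S Q e₂ v) w = w + (-polar Q v w) • e₂ := by
    rw [S_ap h.h2.left hv.c, hw.c]
    module
  have h3 : polar Q e₁ ((-polar Q v w) • e₂) = 0 := by rw [polar_smul_right, h.ee, smul_zero]
  rw [S2_e1 h hv, h2, S_add h.h1.left hw.a h3, mul_inv_eq_iff_eq_mul] at h1
  exact h1

theorem z_add (c c' : F) : S Q e₁ ((c + c') • e₂) = S Q e₁ (c • e₂) * S Q e₁ (c' • e₂) := by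
  have h2 : ∀ c : F, polar Q e₁ (c • e₂) = 0 := fun c => by rw [polar_smul_right, h.ee, smul_zero]
  rw [add_smul, S_add h.h1.left (h2 _) (h2 _)]

theorem th_mul {v₁ v₂ w₁ w₂ : V} (hv₁ : Pp Q e₁ f₁ e₂ f₂ v₁) (hv₂ : Pp Q e₁ f₁ e₂ f₂ v₂)
    (hw₁ : Pp Q e₁ f₁ e₂ f₂ w₁) (hw₂ : Pp Q e₁ f₁ e₂ f₂ w₂) (c c' : F) :
    th Q e₁ e₂ v₁ v₂ c * th Q e₁ e₂ w₁ w₂ c' = th Q e₁ e₂ (v₁ + w₁) (v₂ + w₂) (c + c' - polar Q v₂ w₁) := by
  unfold th
  rw [S_add h.h1.left hv₁.a hw₁.a, S_add h.h2.left hv₂.c hw₂.c]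
  have e : c + c' - polar Q v₂ w₁ = (-polar Q v₂ w₁) + (c + c') := by ring
  rw [e, z_add h, z_add h]
  calc S Q e₁ v₁ * S Q e₂ v₂ * S Q e₁ (c • e₂) * (S Q e₁ w₁ * S Q e₂ w₂ * S Q e₁ (c' • e₂))
      = S Q e₁ v₁ * S Q e₂ v₂ * (S Q e₁ (c • e₂) * S Q e₁ w₁) * S Q e₂ w₂ * S Q e₁ (c' • e₂) := by group
    _ = S Q e₁ v₁ * (S Q e₂ v₂ * S Q e₁ w₁) * (S Q e₁ (c • e₂) * S Q e₂ w₂) * S Q e₁ (c' • e₂) := by
      rw [z_comm1 h hw₁]; group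
    _ = S Q e₁ v₁ * S Q e₁ w₁ * (S Q e₁ ((-polar Q v₂ w₁) • e₂) * S Q e₂ v₂) * S Q e₂ w₂ *
        (S Q e₁ (c • e₂) * S Q e₁ (c' • e₂)) := by
      rw [comm21 h hv₂ hw₁, z_comm2 h hw₂]; group
    _ = S Q e₁ v₁ * S Q e₁ w₁ * S Q e₂ v₂ * (S Q e₁ ((-polar Q v₂ w₁) • e₂) * S Q e₂ w₂) *
        (S Q e₁ (c • e₂) * S Q e₁ (c' • e₂)) := by
      rw [z_comm2 h hv₂]; group
    _ = _ := by
      rw [z_comm2 h hw₂]; group

theorem th_zero : th Q e₁ e₂ 0 0 0 = 1 := by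
  unfold th
  rw [S_zero, S_zero, zero_smul, S_zero, mul_one, mul_one]

theorem th_inv {v₁ v₂ : V} (hv₁ : Pp Q e₁ f₁ e₂ f₂ v₁) (hv₂ : Pp Q e₁ f₁ e₂ f₂ v₂) (c : F) :
    (th Q e₁ e₂ v₁ v₂ c)⁻¹ = th Q e₁ e₂ (-v₁) (-v₂) (-c - polar Q v₂ v₁) := by
  rw [inv_eq_iff_mul_eq_one, th_mul h hv₁ hv₂ hv₁.neg hv₂.neg, add_neg_cancel, add_neg_cancel, polar_neg_right]
  rw [show c + (-c - polar Q v₂ v₁) - -polar Q v₂ v₁ = 0 by ring, th_zero h]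

theorem th_f1 {v₁ v₂ : V} (hv₁ : Pp Q e₁ f₁ e₂ f₂ v₁) (hv₂ : Pp Q e₁ f₁ e₂ f₂ v₂) (c : F) :
    ap (th Q e₁ e₂ v₁ v₂ c) f₁ = f₁ + v₁ - Q v₁ • e₁ + c • e₂ := by
  obtain ⟨p1, p2, p3, p4, p5, p6, p7, p8, p9, p10, p11, p12, p13, p14, p15, p16⟩ := h.pols
  have h2 : polar Q e₁ (c • e₂) = 0 := by rw [polar_smul_right, h.ee, smul_zero]
  have h1 : Q (c • e₂) = 0 := by rw [QuadraticMap.map_smul, h.h2.left, smul_zero]
  have k1 : ap (S Q e₁ (c • e₂)) f₁ = f₁ + c • e₂ := by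
    rw [S_ap' h.h1.left h2 h1, p5, polar_smul_left, p14]
    module
  have k2 : ap (S Q e₂ v₂) f₁ = f₁ := S_fix h.h2.left hv₂.c p14 (by rw [polar_comm]; exact hv₂.b)
  have k3 : ap (S Q e₂ v₂) e₂ = e₂ := S_fix h.h2.left hv₂.c p3 (by rw [polar_comm]; exact hv₂.c)
  have k4 : ap (S Q e₁ v₁) e₂ = e₂ := S_fix h.h1.left hv₁.a p9 (by rw [polar_comm]; exact hv₁.c)
  have k5 : ap (S Q e₁ v₁) f₁ = f₁ + v₁ - Q v₁ • e₁ := by
    rw [S_ap h.h1.left hv₁.a, p5, polar_comm Q v₁ f₁, hv₁.b]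
    module
  unfold th
  rw [ap_mul, ap_mul, k1, ap_add, ap_smul, k2, k3, ap_add, ap_smul, k4, k5]

theorem th_f2 {v₁ v₂ : V} (hv₁ : Pp Q e₁ f₁ e₂ f₂ v₁) (hv₂ : Pp Q e₁ f₁ e₂ f₂ v₂) (c : F) :
    ap (th Q e₁ e₂ v₁ v₂ c) f₂ = f₂ + v₂ - Q v₂ • e₂ - (c + polar Q v₁ v₂) • e₁ := by
  obtain ⟨p1, p2, p3, p4, p5, p6, p7, p8, p9, p10, p11, p12, p13, p14, p15, p16⟩ := h.pols
  have h2 : polar Q e₁ (c • e₂) = 0 := by rw [polar_smul_right, h.ee, smul_zero]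
  have h1 : Q (c • e₂) = 0 := by rw [QuadraticMap.map_smul, h.h2.left, smul_zero]
  have k1 : ap (S Q e₁ (c • e₂)) f₂ = f₂ - c • e₁ := by
    rw [S_ap' h.h1.left h2 h1, p11, polar_smul_left, p7, smul_eq_mul, mul_one]
    module
  have k2 : ap (S Q e₂ v₂) f₂ = f₂ + v₂ - Q v₂ • e₂ := by
    rw [S_ap h.h2.left hv₂.c, p7, polar_comm Q v₂ f₂, hv₂.d]
    module
  have k3 : ap (S Q e₂ v₂) e₁ = e₁ := S2_e1 h hv₂
  have k4 : ap (S Q e₁ v₁) e₂ = e₂ := S_fix h.h1.left hv₁.a p9 (by rw [polar_comm]; exact hv₁.c)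
  have k5 : ap (S Q e₁ v₁) f₂ = f₂ := S_fix h.h1.left hv₁.a p11 (by rw [polar_comm]; exact hv₁.d)
  have k6 : ap (S Q e₁ v₁) v₂ = v₂ - polar Q v₁ v₂ • e₁ := by
    rw [S_ap h.h1.left hv₁.a, hv₂.a]
    module
  have k7 : ap (S Q e₁ v₁) e₁ = e₁ := S_fix h.h1.left hv₁.a p1 (by rw [polar_comm]; exact hv₁.a)
  unfold th
  rw [ap_mul, ap_mul, k1, ap_sub, ap_smul, k2, k3, ap_sub, ap_sub, ap_add, ap_smul, ap_smul, k4, k5, k6, k7]
  module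

theorem th_inj {v₁ v₂ w₁ w₂ : V} (hv₁ : Pp Q e₁ f₁ e₂ f₂ v₁) (hv₂ : Pp Q e₁ f₁ e₂ f₂ v₂)
    (hw₁ : Pp Q e₁ f₁ e₂ f₂ w₁) (hw₂ : Pp Q e₁ f₁ e₂ f₂ w₂) {c c' : F}
    (H : th Q e₁ e₂ v₁ v₂ c = th Q e₁ e₂ w₁ w₂ c') : v₁ = w₁ ∧ v₂ = w₂ ∧ c = c' := by
  obtain ⟨p1, p2, p3, p4, p5, p6, p7, p8, p9, p10, p11, p12, p13, p14, p15, p16⟩ := h.pols
  have k1 : ap (th Q e₁ e₂ v₁ v₂ c) f₁ = ap (th Q e₁ e₂ w₁ w₂ c') f₁ := by rw [H]
  have k2 : ap (th Q e₁ e₂ v₁ v₂ c) f₂ = ap (th Q e₁ e₂ w₁ w₂ c') f₂ := by rw [H]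
  rw [th_f1 h hv₁ hv₂, th_f1 h hw₁ hw₂] at k1
  rw [th_f2 h hv₁ hv₂, th_f2 h hw₁ hw₂] at k2
  have a1 := congrArg (polar Q f₂) k1
  have a2 := congrArg (polar Q f₁) k1
  have a3 := congrArg (polar Q f₁) k2
  have a4 := congrArg (polar Q f₂) k2
  simp only [polar_add_right, polar_sub_right, polar_smul_right, smul_eq_mul, p2, p4, p6, p8, p12, p13, p15, p16,
    hv₁.b, hv₁.d, hv₂.b, hv₂.d, hw₁.b, hw₁.d, hw₂.b, hw₂.d] at a1 a2 a3 a4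
  have b1 : c = c' := by linear_combination a1
  have b2 : Q v₁ = Q w₁ := by linear_combination -a2
  have b3 : c + polar Q v₁ v₂ = c' + polar Q w₁ w₂ := by linear_combination -a3
  have b4 : Q v₂ = Q w₂ := by linear_combination -a4
  refine ⟨?_, ?_, b1⟩
  · rw [b1, b2] at k1
    have := congrArg (fun x => x - f₁ + Q w₁ • e₁ - c' • e₂) k1
    have l1 : f₁ + v₁ - Q w₁ • e₁ + c' • e₂ - f₁ + Q w₁ • e₁ - c' • e₂ = v₁ := by abel
    have l2 : f₁ + w₁ - Q w₁ • e₁ + c' • e₂ - f₁ + Q w₁ • e₁ - c' • e₂ = w₁ := by abel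
    rwa [l1, l2] at this
  · rw [b3, b4] at k2
    have := congrArg (fun x => x - f₂ + Q w₂ • e₂ + (c' + polar Q w₁ w₂) • e₁) k2
    have l1 : f₂ + v₂ - Q w₂ • e₂ - (c' + polar Q w₁ w₂) • e₁ - f₂ + Q w₂ • e₂ + (c' + polar Q w₁ w₂) • e₁ = v₂ := by
      abel
    have l2 : f₂ + w₂ - Q w₂ • e₂ - (c' + polar Q w₁ w₂) • e₁ - f₂ + Q w₂ • e₂ + (c' + polar Q w₁ w₂) • e₁ = w₂ := by
      abel
    rwa [l1, l2] at this

omit h in
/-- the group of the line `⟨e₁, e₂⟩` -/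
noncomputable def HG (h : Four Q e₁ f₁ e₂ f₂) (P : Submodule F (V × V)) (hP : ∀ p ∈ P, Pp Q e₁ f₁ e₂ f₂ p.1 ∧ Pp Q e₁ f₁ e₂ f₂ p.2) :
    Subgroup ↥(E Q) where
  carrier := {g | ∃ p ∈ P, ∃ c : F, g = th Q e₁ e₂ p.1 p.2 c}
  one_mem' := ⟨0, P.zero_mem, 0, (th_zero h).symm⟩
  mul_mem' := by
    rintro _ _ ⟨p, hp, c, rfl⟩ ⟨p', hp', c', rfl⟩
    exact ⟨p + p', P.add_mem hp hp', _, th_mul h (hP p hp).1 (hP p hp).2 (hP p' hp').1 (hP p' hp').2 c c'⟩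
  inv_mem' := by
    rintro _ ⟨p, hp, c, rfl⟩
    exact ⟨-p, P.neg_mem hp, _, th_inv h (hP p hp).1 (hP p hp).2 c⟩

omit h in
theorem mem_HG {h : Four Q e₁ f₁ e₂ f₂} {P : Submodule F (V × V)} {hP : ∀ p ∈ P, Pp Q e₁ f₁ e₂ f₂ p.1 ∧ Pp Q e₁ f₁ e₂ f₂ p.2} {g : ↥(E Q)} :
    g ∈ HG h P hP ↔ ∃ p ∈ P, ∃ c : F, g = th Q e₁ e₂ p.1 p.2 c := Iff.rfl

omit h in
theorem card_HG [Finite F] [FiniteDimensional F V] (h : Four Q e₁ f₁ e₂ f₂) (P : Submodule F (V × V))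
    (hP : ∀ p ∈ P, Pp Q e₁ f₁ e₂ f₂ p.1 ∧ Pp Q e₁ f₁ e₂ f₂ p.2) :
    Nat.card (HG h P hP) = Nat.card F ^ (Module.finrank F P + 1) := by
  have e : Nat.card (P × F) = Nat.card (HG h P hP) := by
    refine Nat.card_congr (Equiv.ofBijective (fun x => ⟨th Q e₁ e₂ x.1.1.1 x.1.1.2 x.2, x.1.1, x.1.2, x.2, rfl⟩) ⟨?_, ?_⟩)
    · rintro ⟨⟨p, hp⟩, c⟩ ⟨⟨p', hp'⟩, c'⟩ H
      have H' := congrArg Subtype.val H
      obtain ⟨a1, a2, a3⟩ := th_inj h (hP p hp).1 (hP p hp).2 (hP p' hp').1 (hP p' hp').2 H'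
      have : p = p' := Prod.ext a1 a2
      subst this
      subst a3
      rfl
    · rintro ⟨_, p, hp, c, rfl⟩
      exact ⟨(⟨p, hp⟩, c), rfl⟩
  rw [← e, Nat.card_prod, Module.natCard_eq_pow_finrank (K := F) (V := P), pow_succ]

end four

/-! ### Isotropic additive subgroups -/

theorem card_isotropic [Finite F] {M : Type*} [AddCommGroup M] [Module F M] [FiniteDimensional F M]
    (P : Submodule F M) (β : M →ₗ[F] M →ₗ[F] F) (halt : ∀ x ∈ P, β x x = 0)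
    (hnd : ∀ x ∈ P, (∀ y ∈ P, β x y = 0) → x = 0) (D : AddSubgroup M) (hD : ∀ x ∈ D, x ∈ P)
    (hiso : ∀ x ∈ D, ∀ y ∈ D, β x y = 0) {m : ℕ} (hm : Module.finrank F P ≤ 2 * m + 1) : Nat.card D ≤ Nat.card F ^ m := by
  let B : LinearMap.BilinForm F P := (β.comp P.subtype).compl₂ P.subtype
  have hB : ∀ x y : P, B x y = β (x : M) (y : M) := fun x y => rfl
  have hBalt : B.IsAlt := fun x => halt x x.2
  have hBn : B.Nondegenerate := by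
    have h1 : LinearMap.SeparatingLeft B := by
      intro x hx
      apply Subtype.ext
      exact hnd x x.2 fun y hy => hx ⟨y, hy⟩
    refine ⟨h1, ?_⟩
    intro x hx
    apply h1
    intro y
    have h2 := hBalt.neg_eq y x
    rw [hx y, neg_zero] at h2
    exact h2.symm
  let D' : Submodule F P := Submodule.span F {x : P | (x : M) ∈ D}
  have hD' : D' ≤ B.orthogonal D' := by
    intro x hx y hy
    change B y x = 0
    refine Submodule.span_induction ?_ ?_ ?_ ?_ hy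
    · intro y hy'
      refine Submodule.span_induction ?_ ?_ ?_ ?_ hx
      · intro x hx'
        exact hiso _ hy' _ hx'
      · rw [map_zero]
      · intro a b _ _ ha hb
        rw [map_add, ha, hb, add_zero]
      · intro a b _ hb
        rw [map_smul, hb, smul_zero]
    · rw [map_zero, LinearMap.zero_apply]
    · intro a b _ _ ha hb
      rw [map_add, LinearMap.add_apply, ha, hb, add_zero]
    · intro a b _ hb
      rw [map_smul, LinearMap.smul_apply, hb, smul_zero]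
  have h1 := LinearMap.BilinForm.finrank_orthogonal hBn D'
  have h2 := Submodule.finrank_mono hD'
  have h3 := Submodule.finrank_le D'
  have h4 : Module.finrank F D' ≤ m := by omega
  have h5 : Nat.card D ≤ Nat.card D' := by
    have hfin : Finite D' := Module.finite_of_finite F
    refine Nat.card_le_card_of_injective (fun x : D => (⟨⟨x.1, hD x.1 x.2⟩, Submodule.subset_span x.2⟩ : D')) ?_
    intro x y hxy
    have h6 := congrArg (fun z : D' => ((z : P) : M)) hxy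
    exact Subtype.ext h6
  refine h5.trans ?_
  rw [Module.natCard_eq_pow_finrank (K := F) (V := D')]
  exact Nat.pow_le_pow_right Nat.card_pos h4

/-- the commutator form -/
def comF (Q : QuadraticForm F V) : (V × V) →ₗ[F] (V × V) →ₗ[F] F :=
  LinearMap.mk₂ F (fun p p' => polar Q p.2 p'.1 - polar Q p'.2 p.1)
    (fun a b c => by simp only [Prod.fst_add, Prod.snd_add, polar_add_left, polar_add_right]; ring)
    (fun a b c => by simp only [Prod.smul_fst, Prod.smul_snd, polar_smul_left, polar_smul_right, smul_eq_mul]; ring)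
    (fun a b c => by simp only [Prod.fst_add, Prod.snd_add, polar_add_left, polar_add_right]; ring)
    (fun a b c => by simp only [Prod.smul_fst, Prod.smul_snd, polar_smul_left, polar_smul_right, smul_eq_mul]; ring)

theorem comF_apply (p p' : V × V) : comF Q p p' = polar Q p.2 p'.1 - polar Q p'.2 p.1 := rfl

/-- **a subgroup which meets the centre of `HG` trivially** -/
theorem card_inf_HG [Finite F] [FiniteDimensional F V] {e₁ f₁ e₂ f₂ : V} (h : Four Q e₁ f₁ e₂ f₂)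
    (P : Submodule F (V × V)) (hP : ∀ p ∈ P, Pp Q e₁ f₁ e₂ f₂ p.1 ∧ Pp Q e₁ f₁ e₂ f₂ p.2)
    (hnd : ∀ p ∈ P, (∀ p' ∈ P, comF Q p p' = 0) → p = 0) (X : Subgroup ↥(E Q))
    (hX : ∀ c : F, S Q e₁ (c • e₂) ∈ X → c = 0) {m : ℕ} (hm : Module.finrank F P ≤ 2 * m + 1) :
    Nat.card (X ⊓ HG h P hP : Subgroup ↥(E Q)) ≤ Nat.card F ^ m := by
  have hz : ∀ c : F, th Q e₁ e₂ 0 0 c = S Q e₁ (c • e₂) := by
    intro c
    unfold th
    rw [S_zero, S_zero, one_mul, one_mul]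
  let D : AddSubgroup (V × V) :=
    { carrier := {p | p ∈ P ∧ ∃ c : F, th Q e₁ e₂ p.1 p.2 c ∈ X}
      zero_mem' := ⟨P.zero_mem, 0, by
        have : th Q e₁ e₂ (0 : V × V).1 (0 : V × V).2 0 = 1 := th_zero h
        rw [this]
        exact X.one_mem⟩
      add_mem' := by
        rintro p p' ⟨hp, c, hc⟩ ⟨hp', c', hc'⟩
        refine ⟨P.add_mem hp hp', c + c' - polar Q p.2 p'.1, ?_⟩
        rw [Prod.fst_add, Prod.snd_add, ← th_mul h (hP p hp).1 (hP p hp).2 (hP p' hp').1 (hP p' hp').2 c c']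
        exact X.mul_mem hc hc'
      neg_mem' := by
        rintro p ⟨hp, c, hc⟩
        refine ⟨P.neg_mem hp, -c - polar Q p.2 p.1, ?_⟩
        rw [Prod.fst_neg, Prod.snd_neg, ← th_inv h (hP p hp).1 (hP p hp).2 c]
        exact X.inv_mem hc }
  have huniq : ∀ p ∈ P, ∀ c c' : F, th Q e₁ e₂ p.1 p.2 c ∈ X → th Q e₁ e₂ p.1 p.2 c' ∈ X → c = c' := by
    intro p hp c c' hc hc'
    have h1 : th Q e₁ e₂ p.1 p.2 c = th Q e₁ e₂ p.1 p.2 c' * th Q e₁ e₂ 0 0 (c - c') := by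
      rw [th_mul h (hP p hp).1 (hP p hp).2 Pp.zero Pp.zero, polar_zero_right, add_zero, add_zero]
      congr 1
      ring
    have h2 : th Q e₁ e₂ 0 0 (c - c') ∈ X := by
      have := X.mul_mem (X.inv_mem hc') hc
      rwa [h1, inv_mul_cancel_left] at this
    rw [hz] at h2
    exact sub_eq_zero.1 (hX _ h2)
  have hcard : Nat.card (X ⊓ HG h P hP : Subgroup ↥(E Q)) = Nat.card D := by
    symm
    refine Nat.card_congr (Equiv.ofBijective (fun p : D => (⟨th Q e₁ e₂ p.1.1 p.1.2 (Classical.choose p.2.2),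
      Classical.choose_spec p.2.2, ⟨p.1, p.2.1, _, rfl⟩⟩ : (X ⊓ HG h P hP : Subgroup ↥(E Q)))) ⟨?_, ?_⟩)
    · intro p p' H
      have H' := congrArg Subtype.val H
      obtain ⟨a1, a2, a3⟩ := th_inj h (hP p.1 p.2.1).1 (hP p.1 p.2.1).2 (hP p'.1 p'.2.1).1 (hP p'.1 p'.2.1).2 H'
      exact Subtype.ext (Prod.ext a1 a2)
    · rintro ⟨g, hgX, p, hp, c, rfl⟩
      refine ⟨⟨p, hp, c, hgX⟩, ?_⟩
      apply Subtype.ext
      have h1 : Classical.choose (⟨c, hgX⟩ : ∃ c : F, th Q e₁ e₂ p.1 p.2 c ∈ X) = c :=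
        huniq p hp _ _ (Classical.choose_spec (⟨c, hgX⟩ : ∃ c : F, th Q e₁ e₂ p.1 p.2 c ∈ X)) hgX
      change th Q e₁ e₂ p.1 p.2 (Classical.choose (⟨c, hgX⟩ : ∃ c : F, th Q e₁ e₂ p.1 p.2 c ∈ X)) = _
      rw [h1]
  rw [hcard]
  refine card_isotropic P (comF Q) (fun x _ => by rw [comF_apply, sub_self]) hnd D (fun x hx => hx.1) ?_ hm
  rintro p ⟨hp, c, hc⟩ p' ⟨hp', c', hc'⟩
  rw [comF_apply]
  have h1 := X.mul_mem hc hc'
  have h2 := X.mul_mem hc' hc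
  rw [th_mul h (hP p hp).1 (hP p hp).2 (hP p' hp').1 (hP p' hp').2] at h1
  rw [th_mul h (hP p' hp').1 (hP p' hp').2 (hP p hp).1 (hP p hp).2, add_comm p'.1, add_comm p'.2] at h2
  have h3 := huniq (p + p') (P.add_mem hp hp') _ _ h1 h2
  linear_combination -h3

end Cfsg.Agent.H786.IF
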